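/-
P17 (homogeneous groups, S3923 and S3924): definitions, the extension lemma, chapter statements.
See `plans/P17.md`.
-/
import Cfsg.Agent.P4.Dih
import Cfsg.Agent.P4.PSL2
import Cfsg.Agent.Cj.Ext
import Cfsg.Agent.H8.Frobenius

set_option autoImplicit false

namespace Cfsg.Agent.P17

open Subgroup Cfsg Cfsg.Agent Cfsg.Agent.FT

universe u

/-- Homogeneous groups. -/
def Hg (G : Type*) [Group G] : Prop :=
  ∀ (A B : Subgroup G) (e : A ≃* B), ∃ φ : G ≃* G, ∀ a : A, φ (a : G) = (e a : G)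

/-- Homogeneity for subgroups of odd order. -/
def OHg (G : Type*) [Group G] : Prop :=
  ∀ (A : Subgroup G), Odd 𝐨(A) → ∀ f : A →* G, Function.Injective f →
    ∃ φ : G ≃* G, ∀ a : A, φ (a : G) = f a

/-- `a, b` is a basis of an elementary abelian group of order `p ^ 2`. -/
structure R2 {G : Type*} [Group G] (p : ℕ) (a b : G) : Prop where
  oa : orderOf a = p
  ob : orderOf b = p
  comm : Commute a b
  ne : b ∉ zpowers a

/-- No element induces a transvection on a subgroup of type `(p, p)`. -/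
def NT (G : Type*) [Group G] (p : ℕ) : Prop :=
  ∀ a b g : G, R2 p a b → g * a * g⁻¹ = a → g * b * g⁻¹ ≠ a * b

/-- Normalizers of elementary abelian `p`-subgroups induce scalars. -/
def Sc (G : Type*) [Group G] (p : ℕ) : Prop :=
  ∀ A : Subgroup G, IsElementaryAbelian p A → ∀ g ∈ 𝐍(A), ∀ a ∈ A, g * a * g⁻¹ ∈ zpowers a

/-- One class of involutions. -/
def OneCl (G : Type*) [Group G] : Prop :=
  ∀ x y : G, x ≠ 1 → x * x = 1 → y ≠ 1 → y * y = 1 → IsConj x y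

/-- Inner automorphisms. -/
def Inner {G : Type*} [Group G] (φ : G ≃* G) : Prop := ∃ g, ∀ y, φ y = g * y * g⁻¹

/-- `PSL₂(p)`. -/
abbrev L2 (p : ℕ) := Matrix.ProjectiveSpecialLinearGroup (Fin 2) (ZMod p)

/-- `SL₂(p)`. -/
abbrev S2 (p : ℕ) := Matrix.SpecialLinearGroup (Fin 2) (ZMod p)

/-- `|Out(PSL₂(p))| ≤ 2`. -/
def AutStmt : Prop := ∀ (Y : Type u) [Group Y] [Finite Y] (p : ℕ) [Fact p.Prime], 5 ≤ p →
  Nonempty (Y ≃* L2 p) → ∀ φ ψ : Y ≃* Y, Inner φ ∨ Inner ψ ∨ Inner (ψ.symm.trans φ)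

/-- Dihedral Sylow 2-subgroups (order four allowed). -/
def DHStmt : Prop := ∀ (Y : Type u) [Group Y] [Finite Y], OHg Y → OneCl Y →
  ∀ (S : Subgroup Y) (x z s : Y), P4.Max2 S x z s → s * x * s = x⁻¹ →
    (x * x ≠ 1 → ∃ φ : Y ≃* Y, φ x = x⁻¹ ∧ φ s = s * x) → 𝐂(S) ≤ S →
    Nonempty (Y ≃* L2 3) ∨ Nonempty (Y ≃* L2 5) ∨ Nonempty (Y ≃* L2 7)

/-- Quaternion Sylow 2-subgroups. -/
def QStmt : Prop := ∀ (L : Type u) [Group L] [Finite L], Hg L → ∀ t : L, t ≠ 1 →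
  (∀ v : L, v * v = 1 ↔ v = 1 ∨ v = t) → ¬ HasNormalPComplement 2 L →
  (∀ S : Subgroup L, IsSyl 2 S ⊤ → 𝐂(S) ≤ S) → Nonempty (L ≃* S2 3) ∨ Nonempty (L ≃* S2 5)

/-- Semidihedral Sylow 2-subgroups do not occur. -/
def SDStmt : Prop := ∀ (G : Type u) [Group G] [Finite G] [IsSimpleGroup G],
  ¬ IsMulCommutative G → Hg G → OneCl G →
  ∀ (S : Subgroup G) (x z s : G), P4.Max2 S x z s → s * x * s = x⁻¹

/-- Higman's lemma under homogeneity. -/
def HLStmt : Prop := ∀ (G : Type u) [Group G] [Finite G], Hg G → ∀ E R : Subgroup G,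
  IsSyl 2 R 𝐂(E) → (∀ x, x ∈ E ↔ x ∈ R ∧ x * x = 1) → 4 ≤ 𝐨(E) →
  ((∀ x ∈ R, x * x ∈ E) ∧ R ⊓ 𝐂(R) ≤ E) ∨ ∀ x ∈ R, x ^ 4 = 1 → x ∈ 𝐂(R)

/-- Elementary abelian 2-subgroups of maximal order at least eight have trivial automizer. -/
def BigStmt : Prop := ∀ (G : Type u) [Group G] [Finite G], Hg G → ∀ E : Subgroup G,
  IsElementaryAbelian 2 E → (∀ F : Subgroup G, IsElementaryAbelian 2 F → 𝐨(F) ≤ 𝐨(E)) →
  8 ≤ 𝐨(E) → 𝐍(E) ≤ 𝐂(E)

/-- The 2-local analysis of a simple homogeneous group. -/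
def TwoStmt : Prop := ∀ (G : Type u) [Group G] [Finite G] [IsSimpleGroup G],
  ¬ IsMulCommutative G → Hg G →
  OneCl G ∧ ∃ (S : Subgroup G) (x z s : G), P4.Max2 S x z s

/-- Simple homogeneous groups. -/
def SimpleStmt : Prop := ∀ (G : Type u) [Group G] [Finite G] [IsSimpleGroup G],
  ¬ IsMulCommutative G → Hg G → Nonempty (G ≃* L2 5) ∨ Nonempty (G ≃* L2 7)

/-- Perfect homogeneous groups. -/
def PerfStmt : Prop := ∀ (K : Type u) [Group K] [Finite K] [Nontrivial K], Hg K →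
  _root_.commutator K = ⊤ →
  Nonempty (K ≃* L2 5) ∨ Nonempty (K ≃* L2 7) ∨ Nonempty (K ≃* S2 5)

variable {G : Type*} [Group G]

theorem Hg.ext (h : Hg G) {A : Subgroup G} (f : A →* G) (hf : Function.Injective f) :
    ∃ φ : G ≃* G, ∀ a : A, φ (a : G) = f a :=
  h A f.range (MonoidHom.ofInjective hf)

theorem Hg.ohg (h : Hg G) : OHg G := fun _ _ f hf => h.ext f hf

/-- A subgroup of `G × G` that is the graph of an injective map. -/
theorem exists_hom_of_graph (X : Subgroup (G × G)) (h1 : ∀ b, (1, b) ∈ X → b = 1)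
    (h2 : ∀ a, (a, 1) ∈ X → a = 1) : ∃ f : X.map (MonoidHom.fst G G) →* G,
      Function.Injective f ∧ ∀ p (hp : p ∈ X), f ⟨p.1, mem_map_of_mem _ hp⟩ = p.2 := by
  have i1 : Function.Injective ((MonoidHom.fst G G).subgroupMap X) :=
    (injective_iff_map_eq_one _).2 fun p e => Subtype.ext (Prod.ext (congrArg Subtype.val e)
      (h1 _ (by have := p.2; rwa [← show (p : G × G).1 = 1 from congrArg Subtype.val e])))
  let e := MulEquiv.ofBijective _ ⟨i1, (MonoidHom.fst G G).subgroupMap_surjective X⟩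
  refine ⟨((MonoidHom.snd G G).comp X.subtype).comp e.symm.toMonoidHom,
    ((injective_iff_map_eq_one ((MonoidHom.snd G G).comp X.subtype)).2 fun p e => Subtype.ext
      (Prod.ext (h2 _ (by have := p.2; rwa [← show (p : G × G).2 = 1 from e])) e)).comp
        e.symm.injective,
    fun p hp => ?_⟩
  have : e ⟨p, hp⟩ = ⟨p.1, mem_map_of_mem _ hp⟩ := rfl
  simp [← this]

theorem Hg.graph (h : Hg G) (X : Subgroup (G × G)) (h1 : ∀ b, (1, b) ∈ X → b = 1)
    (h2 : ∀ a, (a, 1) ∈ X → a = 1) : ∃ φ : G ≃* G, ∀ p ∈ X, φ p.1 = p.2 := by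
  obtain ⟨f, hf, e⟩ := exists_hom_of_graph X h1 h2
  obtain ⟨φ, hφ⟩ := h.ext f hf
  exact ⟨φ, fun p hp => (hφ ⟨p.1, mem_map_of_mem _ hp⟩).trans (e p hp)⟩

theorem OHg.graph (h : OHg G) (X : Subgroup (G × G)) {A : Subgroup G} [Finite G] (hA : Odd 𝐨(A))
    (h0 : ∀ p ∈ X, p.1 ∈ A) (h1 : ∀ b, (1, b) ∈ X → b = 1)
    (h2 : ∀ a, (a, 1) ∈ X → a = 1) : ∃ φ : G ≃* G, ∀ p ∈ X, φ p.1 = p.2 := by
  obtain ⟨f, hf, e⟩ := exists_hom_of_graph X h1 h2
  obtain ⟨φ, hφ⟩ := h _ (hA.of_dvd_nat (FT.card_dvd_of_le (by rintro _ ⟨p, hp, rfl⟩; exact h0 p hp))) f hf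
  exact ⟨φ, fun p hp => (hφ ⟨p.1, mem_map_of_mem _ hp⟩).trans (e p hp)⟩

/-- The graph of the extension of `ψ` on `U` by `b ↦ b'`. -/
def cycGraph (U : Subgroup G) (ψ : G → G) (b b' : G) (hb : b ∈ 𝐍(U))
    (mul : ∀ u ∈ U, ∀ v ∈ U, ψ (u * v) = ψ u * ψ v)
    (cj : ∀ u ∈ U, ψ (b * u * b⁻¹) = b' * ψ u * b'⁻¹) : Subgroup (G × G) where
  carrier := {p | ∃ k : ℤ, ∃ u ∈ U, p = (b ^ k * u, b' ^ k * ψ u)}
  one_mem' := ⟨0, 1, one_mem _, by
    have := mul 1 (one_mem _) 1 (one_mem _)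
    simp only [mul_one, left_eq_mul] at this
    simp [this, Prod.ext_iff]⟩
  mul_mem' := by
    have cz : ∀ k : ℤ, ∀ u ∈ U, ψ (b ^ k * u * (b ^ k)⁻¹) = b' ^ k * ψ u * (b' ^ k)⁻¹ := fun k => by
      induction k using Int.induction_on with
      | zero => simp
      | succ k ih => 
        intro u hu
        have := ih _ ((mem_normalizer_iff.1 hb u).1 hu)
        rw [cj u hu] at this
        rw [zpow_add_one, zpow_add_one]
        convert this using 1
        · congr 1; group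
        · group
      | pred k ih =>
        intro u hu
        have h1 := (mem_normalizer_iff.1 (inv_mem hb) u).1 hu
        have h2 := cj _ h1
        rw [show b * (b⁻¹ * u * b⁻¹⁻¹) * b⁻¹ = u by group] at h2
        have := ih _ h1
        rw [zpow_sub_one, zpow_sub_one, h2]
        convert this using 1
        · congr 1; group
        · group
    rintro _ _ ⟨k, u, hu, rfl⟩ ⟨l, v, hv, rfl⟩
    have h1 := (mem_normalizer_iff.1 (zpow_mem hb (-l)) u).1 hu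
    refine ⟨k + l, _, mul_mem h1 hv, ?_⟩
    rw [mul _ h1 _ hv, cz _ _ hu]
    ext <;> simp <;> group
  inv_mem' := by
    have cz : ∀ k : ℤ, ∀ u ∈ U, ψ (b ^ k * u * (b ^ k)⁻¹) = b' ^ k * ψ u * (b' ^ k)⁻¹ := fun k => by
      induction k using Int.induction_on with
      | zero => simp
      | succ k ih => 
        intro u hu
        have := ih _ ((mem_normalizer_iff.1 hb u).1 hu)
        rw [cj u hu] at this
        rw [zpow_add_one, zpow_add_one]
        convert this using 1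
        · congr 1; group
        · group
      | pred k ih =>
        intro u hu
        have h1 := (mem_normalizer_iff.1 (inv_mem hb) u).1 hu
        have h2 := cj _ h1
        rw [show b * (b⁻¹ * u * b⁻¹⁻¹) * b⁻¹ = u by group] at h2
        have := ih _ h1
        rw [zpow_sub_one, zpow_sub_one, h2]
        convert this using 1
        · congr 1; group
        · group
    rintro _ ⟨k, u, hu, rfl⟩
    have h0 := mul 1 (one_mem _) 1 (one_mem _)
    simp only [mul_one, left_eq_mul] at h0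
    have h2 : ψ u⁻¹ = (ψ u)⁻¹ := eq_inv_of_mul_eq_one_left (by
      rw [← mul _ (inv_mem hu) _ hu, inv_mul_cancel, h0])
    refine ⟨-k, _, (mem_normalizer_iff.1 (zpow_mem hb k) _).1 (inv_mem hu), ?_⟩
    rw [cz _ _ (inv_mem hu), h2]
    ext <;> simp <;> group

theorem cyc_aux {U : Subgroup G} {ψ : G → G} {b b' : G} (hb : b ∈ 𝐍(U))
    (mul : ∀ u ∈ U, ∀ v ∈ U, ψ (u * v) = ψ u * ψ v)
    (cj : ∀ u ∈ U, ψ (b * u * b⁻¹) = b' * ψ u * b'⁻¹) {φ : G ≃* G}
    (h : ∀ p ∈ cycGraph U ψ b b' hb mul cj, φ p.1 = p.2) : (∀ u ∈ U, φ u = ψ u) ∧ φ b = b' := by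
  have h0 := mul 1 (one_mem _) 1 (one_mem _)
  simp only [mul_one, left_eq_mul] at h0
  exact ⟨fun u hu => by simpa using h _ ⟨0, u, hu, rfl⟩, by simpa [h0] using h _ ⟨1, 1, one_mem _, rfl⟩⟩

/-- **Extension lemma**: extend a homomorphism `ψ` on `U` by `b ↦ b'`. -/
theorem Hg.cyc_ext (h : Hg G) {U : Subgroup G} {ψ : G → G} {b b' : G} (hb : b ∈ 𝐍(U))
    (mul : ∀ u ∈ U, ∀ v ∈ U, ψ (u * v) = ψ u * ψ v)
    (cj : ∀ u ∈ U, ψ (b * u * b⁻¹) = b' * ψ u * b'⁻¹)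
    (rel : ∀ (k : ℤ), ∀ u ∈ U, b ^ k * u = 1 ↔ b' ^ k * ψ u = 1) :
    ∃ φ : G ≃* G, (∀ u ∈ U, φ u = ψ u) ∧ φ b = b' := by
  obtain ⟨φ, hφ⟩ := h.graph (cycGraph U ψ b b' hb mul cj)
    (by rintro _ ⟨k, u, hu, e⟩; exact (Prod.ext_iff.1 e).2.trans ((rel k u hu).1 (Prod.ext_iff.1 e).1.symm))
    (by rintro _ ⟨k, u, hu, e⟩; exact (Prod.ext_iff.1 e).1.trans ((rel k u hu).2 (Prod.ext_iff.1 e).2.symm))
  exact ⟨φ, cyc_aux hb mul cj hφ⟩

theorem OHg.cyc_ext [Finite G] (h : OHg G) {A U : Subgroup G} (hA : Odd 𝐨(A)) (hU : U ≤ A)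
    {ψ : G → G} {b b' : G} (hbA : b ∈ A) (hb : b ∈ 𝐍(U))
    (mul : ∀ u ∈ U, ∀ v ∈ U, ψ (u * v) = ψ u * ψ v)
    (cj : ∀ u ∈ U, ψ (b * u * b⁻¹) = b' * ψ u * b'⁻¹)
    (rel : ∀ (k : ℤ), ∀ u ∈ U, b ^ k * u = 1 ↔ b' ^ k * ψ u = 1) :
    ∃ φ : G ≃* G, (∀ u ∈ U, φ u = ψ u) ∧ φ b = b' := by
  obtain ⟨φ, hφ⟩ := h.graph (cycGraph U ψ b b' hb mul cj) hA
    (by rintro _ ⟨k, u, hu, rfl⟩; exact mul_mem (zpow_mem hbA k) (hU hu))
    (by rintro _ ⟨k, u, hu, e⟩; exact (Prod.ext_iff.1 e).2.trans ((rel k u hu).1 (Prod.ext_iff.1 e).1.symm))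
    (by rintro _ ⟨k, u, hu, e⟩; exact (Prod.ext_iff.1 e).1.trans ((rel k u hu).2 (Prod.ext_iff.1 e).2.symm))
  exact ⟨φ, cyc_aux hb mul cj hφ⟩

/-- Elements of the same order are conjugate under `Aut G`. -/
theorem Hg.order (h : Hg G) {x y : G} (e : orderOf x = orderOf y) : ∃ φ : G ≃* G, φ x = y := by
  obtain ⟨φ, -, hφ⟩ := h.cyc_ext (U := ⊥) (ψ := id) (b := x) (b' := y) (norm_bot.ge trivial)
    (fun _ _ _ _ => rfl) (by simp) (by simp [← orderOf_dvd_iff_zpow_eq_one, e])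
  exact ⟨φ, hφ⟩

theorem OHg.order [Finite G] (h : OHg G) {x y : G} (ho : Odd (orderOf x))
    (e : orderOf x = orderOf y) : ∃ φ : G ≃* G, φ x = y := by
  obtain ⟨φ, -, hφ⟩ := h.cyc_ext (A := zpowers x) (U := ⊥) (ψ := id) (b := x) (b' := y)
    (by rwa [Nat.card_zpowers]) bot_le (mem_zpowers x) (norm_bot.ge trivial)
    (fun _ _ _ _ => rfl) (by simp) (by simp [← orderOf_dvd_iff_zpow_eq_one, e])
  exact ⟨φ, hφ⟩

/-- A subgroup invariant under enough automorphisms is homogeneous. -/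
theorem hg_of_inv [Finite G] {N : Subgroup G} (h : ∀ (A : Subgroup G), A ≤ N → ∀ f : A →* G,
    Function.Injective f → (∀ a, f a ∈ N) → ∃ φ : G ≃* G, (∀ x ∈ N, φ x ∈ N) ∧ ∀ a : A, φ a = f a) :
    Hg N := fun A B e => by
  let i := A.equivMapOfInjective N.subtype N.subtype_injective
  obtain ⟨φ, h1, h2⟩ := h (A.map N.subtype) (map_subtype_le A)
    ((N.subtype.comp B.subtype).comp (i.symm.trans e).toMonoidHom)
    ((N.subtype_injective.comp B.subtype_injective).comp (i.symm.trans e).injective)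
    fun a => Subtype.prop _
  let f : N →* N := (φ.toMonoidHom.comp N.subtype).codRestrict N fun x => h1 x x.2
  have hf : Function.Injective f := fun x y e => Subtype.ext (φ.injective (congrArg Subtype.val e))
  refine ⟨MulEquiv.ofBijective f (Finite.injective_iff_bijective.1 hf), fun a => Subtype.ext ?_⟩
  exact (h2 (i a)).trans (by simp)

/-- Characteristic subgroups of homogeneous groups are homogeneous. -/
theorem Hg.char [Finite G] (h : Hg G) (N : Subgroup G) [hN : N.Characteristic] : Hg N :=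
  hg_of_inv fun _ _ f hf _ => (h.ext f hf).imp fun φ e =>
    ⟨fun _ hx => (characteristic_iff_le_comap.1 hN φ) hx, e⟩

theorem Hg.of_equiv {H : Type*} [Group H] (h : Hg G) (e : G ≃* H) : Hg H := fun A B f => by
  obtain ⟨φ, hφ⟩ := h.ext (A := A.map e.symm.toMonoidHom) ((e.symm.toMonoidHom.comp B.subtype).comp
    ((e.symm.subgroupMap A).symm.trans f).toMonoidHom) ((e.symm.injective.comp
      B.subtype_injective).comp ((e.symm.subgroupMap A).symm.trans f).injective)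
  refine ⟨(e.symm.trans φ).trans e, fun a => ?_⟩
  have := hφ (e.symm.subgroupMap A a)
  simp only [MulEquiv.trans_apply]
  rw [show φ (e.symm a) = e.symm (f ((e.symm.subgroupMap A).symm (e.symm.subgroupMap A a))) from this]
  simp

end Cfsg.Agent.P17
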